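import Mathlib
import Cfsg.Agent.Lib.Helper5.CS4.Defs
import Cfsg.Agent.Lib.Helper71.ClassSize

set_option autoImplicit false

namespace Cfsg.Agent.Lib.Helper27.CS4

open Cfsg.Agent.Lib.Helper5.CS4

universe u

/-- **[NCQ]** -/
theorem pkgNCQ : PkgNCQ.{u} := by
  intro G _ _ n q e U a₀ hS x hx
  by_contra hcon
  push Not at hcon
  have hq := hS.hq
  have : Fact q.Prime := ⟨hq⟩
  obtain ⟨hn1, hm1, hcop, hrange⟩ := hS.ctx
  obtain ⟨w, hwU, hw⟩ := hS.w_ex
  have he : e ≠ 0 := by
    rintro rfl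
    simp at hm1
  have hnq : n.Coprime q := Nat.Coprime.coprime_dvd_right (dvd_pow_self q he) hcop
  -- a Sylow `q`-subgroup of `C(x)`
  obtain ⟨P⟩ : Nonempty (Sylow q (Subgroup.centralizer ({x} : Set G))) := inferInstance
  set Q : Subgroup G := P.1.map (Subgroup.centralizer ({x} : Set G)).subtype with hQdef
  have hQcard : Nat.card Q = q ^ (Nat.card (Subgroup.centralizer ({x} : Set G))).factorization q := by
    rw [hQdef, Subgroup.card_map_of_injective (Subgroup.subtype_injective _)]
    exact P.card_eq_multiplicity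
  have hQp : IsPGroup q Q := P.2.map _
  have hQle : Q ≤ Subgroup.center G := by
    rintro _ ⟨y, hy, rfl⟩
    obtain ⟨j, hj⟩ := (IsPGroup.iff_orderOf.mp hQp) ⟨_, Subgroup.mem_map_of_mem _ hy⟩
    apply hcon _ j
    · rw [← hj, Subgroup.orderOf_mk]
    · exact Subgroup.mem_centralizer_singleton_iff.mp y.2
  have hQn : Q.Normal := by
    constructor
    intro a ha g
    have hc := Subgroup.mem_center_iff.mp (hQle ha) g
    have : g * a * g⁻¹ = a := by rw [hc, mul_inv_cancel_right]
    rwa [this]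
  obtain ⟨k, hk⟩ := hS.a₀_order
  have hzp : IsPGroup q (Subgroup.zpowers a₀) := by
    apply IsPGroup.of_card (n := k)
    rw [Nat.card_zpowers, hk]
  have hTp : IsPGroup q (Subgroup.zpowers a₀ ⊔ Q : Subgroup G) :=
    IsPGroup.to_sup_of_normal_right hzp hQp
  have hTle : Subgroup.zpowers a₀ ⊔ Q ≤ Subgroup.centralizer ({w} : Set G) := by
    apply sup_le
    · rw [Subgroup.zpowers_le]
      exact Subgroup.mem_centralizer_singleton_iff.mpr (hS.a₀_cent w hwU)
    · exact hQle.trans (Subgroup.center_le_centralizer _)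
  obtain ⟨i, hi⟩ := IsPGroup.iff_card.mp hTp
  have hdvd : q ^ i ∣ Nat.card (Subgroup.centralizer ({w} : Set G)) := by
    rw [← hi]
    exact Subgroup.card_dvd_of_le hTle
  have h1 := Subgroup.card_mul_index (Subgroup.centralizer ({w} : Set G))
  have h2 := Subgroup.card_mul_index (Subgroup.centralizer ({x} : Set G))
  have hw' : (Subgroup.centralizer ({w} : Set G)).index = q ^ e := hw
  have hx' : (Subgroup.centralizer ({x} : Set G)).index = n * q ^ e := hx
  rw [hw'] at h1
  rw [hx'] at h2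
  have hqe : 0 < q ^ e := pos_of_gt hm1
  have h3 : Nat.card (Subgroup.centralizer ({w} : Set G))
      = Nat.card (Subgroup.centralizer ({x} : Set G)) * n := by
    apply Nat.eq_of_mul_eq_mul_right hqe
    rw [h1, ← h2]
    ring
  rw [h3] at hdvd
  have hdvd' : q ^ i ∣ Nat.card (Subgroup.centralizer ({x} : Set G)) :=
    Nat.Coprime.dvd_of_dvd_mul_right (Nat.Coprime.pow_left i hnq.symm) hdvd
  have hile : i ≤ (Nat.card (Subgroup.centralizer ({x} : Set G))).factorization q :=
    (hq.pow_dvd_iff_le_factorization Nat.card_pos.ne').mp hdvd'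
  have hcard : Nat.card (Subgroup.zpowers a₀ ⊔ Q : Subgroup G) ≤ Nat.card Q := by
    rw [hi, hQcard]
    exact Nat.pow_le_pow_right hq.pos hile
  have hEq : Q = Subgroup.zpowers a₀ ⊔ Q := Subgroup.eq_of_le_of_card_ge le_sup_right hcard
  have ha₀ : a₀ ∈ Subgroup.center G := by
    apply hQle
    rw [hEq]
    exact le_sup_left (a := Subgroup.zpowers a₀) (Subgroup.mem_zpowers a₀)
  have h4 : cidx a₀ = 1 := Cfsg.Agent.Lib.Helper71.cidx_eq_one_iff.mpr ha₀
  rw [hS.a₀_type] at h4
  omega

end Cfsg.Agent.Lib.Helper27.CS4
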