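import Mathlib
import Cfsg.Agent.Lib.Helper5.CS4.Defs
import Cfsg.Agent.Lib.Helper71.ClassSize

set_option autoImplicit false

namespace Cfsg.Agent.Lib.Helper27.CS4

open Cfsg.Agent.Lib.Helper5.CS4

universe u

/-- the centralizer of an element inside a subgroup -/
theorem centralizer_subtype {G : Type u} [Group G] (M : Subgroup G) (y : M) :
    Subgroup.centralizer ({y} : Set M)
      = (Subgroup.centralizer ({(y : G)} : Set G)).subgroupOf M := by
  ext z
  rw [Subgroup.mem_centralizer_singleton_iff, Subgroup.mem_subgroupOf,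
    Subgroup.mem_centralizer_singleton_iff]
  constructor
  · intro h
    exact congrArg Subtype.val h
  · intro h
    exact Subtype.ext h

/-- class sizes in a normal subgroup divide the class sizes in the group -/
theorem cidx_subtype_dvd {G : Type u} [Group G] [Finite G] (M : Subgroup G) [M.Normal] (y : M) :
    cidx y ∣ cidx (y : G) := by
  show (Subgroup.centralizer ({y} : Set M)).index ∣ _
  rw [centralizer_subtype]
  exact Cfsg.Agent.Lib.Helper71.relIndex_dvd_index_of_normal_right _ M

/-- **[U]** -/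
theorem pkgU (hM : PkgM.{u}) (hB4 : PkgSylCentral.{u}) (hPP : PkgPP.{u}) : PkgU.{u} := by
  intro G _ _ n m hctx hmn hgood
  obtain ⟨M, hMn, hMiff⟩ := hM n m hctx hmn
  have hdvdm : ∀ y : M, cidx y ∣ m := by
    intro y
    have h0 := cidx_subtype_dvd M y
    rcases (hMiff y).mp y.2 with h | h
    · rw [h] at h0
      exact h0.trans (one_dvd m)
    · rwa [h] at h0
  -- prime power elements of `M` are central in `M`
  have hpp : ∀ (x : M) (p k : ℕ), p.Prime → orderOf x = p ^ k → x ∈ Subgroup.center M := by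
    intro x p k hp hx
    by_cases hpm : p ∣ m
    · have h1 : cidx (x : G) = 1 := by
        rcases (hMiff x).mp x.2 with h | h
        · exact h
        · exfalso
          apply hgood
          exact ⟨(x : G), p, k, hp, by rw [Subgroup.orderOf_coe, hx], h, hpm⟩
      have hc : (x : G) ∈ Subgroup.center G := Cfsg.Agent.Lib.Helper71.cidx_eq_one_iff.mp h1
      rw [Subgroup.mem_center_iff]
      intro g
      apply Subtype.ext
      exact (Subgroup.mem_center_iff.mp hc) (g : G)
    · apply hB4 (G := M) p hp _ x k hx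
      intro y hy
      exact hpm (hy.trans (hdvdm y))
  have hMab : ∀ x : M, x ∈ Subgroup.center M := by
    intro x
    by_contra hx
    obtain ⟨i, p, k, hp, ho, hnc⟩ := hPP (G := M) x hx
    exact hnc (hpp (x ^ i) p k hp ho)
  have hMcomm : ∀ x ∈ M, ∀ y ∈ M, x * y = y * x := by
    intro x hx y hy
    have h := Subgroup.mem_center_iff.mp (hMab ⟨x, hx⟩) ⟨y, hy⟩
    exact (congrArg Subtype.val h).symm
  refine ⟨{ carrier := {x | x ∈ M ∧ (orderOf x).Coprime m}
            mul_mem' := ?_
            one_mem' := ?_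
            inv_mem' := ?_ }, ?_, ?_, ?_⟩
  · rintro a b ⟨ha, hac⟩ ⟨hb, hbc⟩
    refine ⟨M.mul_mem ha hb, ?_⟩
    have hcomm : Commute a b := hMcomm a ha b hb
    exact Nat.Coprime.coprime_dvd_left
      (hcomm.orderOf_mul_dvd_lcm.trans (Nat.lcm_dvd_mul _ _)) (Nat.Coprime.mul_left hac hbc)
  · exact ⟨M.one_mem, by rw [orderOf_one]; exact Nat.coprime_one_left m⟩
  · rintro a ⟨ha, hac⟩
    exact ⟨M.inv_mem ha, by rwa [orderOf_inv]⟩
  · constructor
    rintro a ⟨ha, hac⟩ g
    refine ⟨hMn.conj_mem a ha g, ?_⟩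
    have h : orderOf (g * a * g⁻¹) = orderOf a := by
      have := (MulAut.conj g).orderOf_eq a
      simpa using this
    show (orderOf (g * a * g⁻¹)).Coprime m
    rwa [h]
  · rintro x ⟨hx, _⟩ y ⟨hy, _⟩
    exact hMcomm x hx y hy
  · intro x
    show (x ∈ M ∧ _) ↔ _
    rw [hMiff]

end Cfsg.Agent.Lib.Helper27.CS4
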